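import Mathlib
import Cfsg.Agent.Lib.ElemAbGL

/-!
# S4577 (G): a group of odd order divisible by five acts freely on `2⁴` (helper193)
-/

set_option autoImplicit false

namespace Cfsg.Agent.H193.KS

open Subgroup

/-- `|Aut(2⁴)| = 20160` -/
theorem card_aut {V : Type*} [CommGroup V] (hp : ∀ x : V, x ^ 2 = 1) (hc : Nat.card V = 16) :
    Nat.card (MulAut V) = 20160 := by
  have : Fact (Nat.Prime 2) := ⟨Nat.prime_two⟩
  obtain ⟨e⟩ := Cfsg.Agent.Lib.ElemAbGL.mulAut_equiv_GL 2 4 hp (by rw [hc]; norm_num)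
  rw [Nat.card_congr e.toEquiv, Matrix.card_GL_field]
  simp [Fin.prod_univ_succ]

/-- the fixed points of an automorphism -/
def fixS {P : Type*} [Group P] (β : MulAut P) : Subgroup P where
  carrier := {v | β v = v}
  mul_mem' {a b} ha hb := by
    show β (a * b) = a * b
    rw [map_mul, show β a = a from ha, show β b = b from hb]
  one_mem' := map_one β
  inv_mem' {a} ha := by
    show β a⁻¹ = a⁻¹
    rw [map_inv, show β a = a from ha]

theorem mem_fixS {P : Type*} [Group P] {β : MulAut P} {v : P} : v ∈ fixS β ↔ β v = v := Iff.rfl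

theorem fixS_eq_top {P : Type*} [Group P] {β : MulAut P} (h : fixS β = ⊤) : β = 1 := by
  ext v
  have h1 : v ∈ fixS β := h ▸ Subgroup.mem_top v
  exact h1

variable {P : Type*} [Group P] [Finite P]

/-- an automorphism `α` of order five has on an invariant subgroup `H` at least `|H|` modulo `5` fixed points -/
theorem card_modEq {α : MulAut P} (h5 : α ^ 5 = 1) {H : Subgroup P} (hH : ∀ v ∈ H, α v ∈ H) :
    Nat.card H ≡ Nat.card (fixS α ⊓ H : Subgroup P) [MOD 5] := by
  have : Fact (Nat.Prime 5) := ⟨Nat.prime_five⟩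
  have hall : ∀ β ∈ Subgroup.zpowers α, ∀ v ∈ H, β v ∈ H := by
    intro β hβ v hv
    have hfin : Finite (MulAut P) := inferInstance
    obtain ⟨k, rfl⟩ := (Subgroup.mem_zpowers_iff.1 hβ)
    have h1 : ∀ n : ℕ, ∀ v ∈ H, (α ^ n) v ∈ H := by
      intro n
      induction n with
      | zero => intro v hv; simpa using hv
      | succ n ih =>
        intro v hv
        rw [pow_succ, MulAut.mul_apply]
        exact ih _ (hH v hv)
    have h2 : α ^ k = α ^ (k % 5).toNat := by
      have h3 : (k % 5) = ((k % 5).toNat : ℤ) := (Int.toNat_of_nonneg (Int.emod_nonneg k (by norm_num))).symm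
      rw [← zpow_natCast, ← h3]
      conv_lhs => rw [← Int.emod_add_mul_ediv k 5]
      rw [zpow_add, zpow_mul]
      have h4 : α ^ (5 : ℤ) = 1 := by exact_mod_cast h5
      rw [h4, one_zpow, mul_one]
    rw [h2]
    exact h1 _ v hv
  let act : MulAction (Subgroup.zpowers α) H :=
    { smul := fun β v => ⟨(β : MulAut P) v.1, hall β.1 β.2 v.1 v.2⟩
      one_smul := fun v => Subtype.ext rfl
      mul_smul := fun β γ v => Subtype.ext rfl }
  have hp : IsPGroup 5 (Subgroup.zpowers α) := by
    intro g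
    refine ⟨1, ?_⟩
    obtain ⟨k, hk⟩ := Subgroup.mem_zpowers_iff.1 g.2
    apply Subtype.ext
    show (g : MulAut P) ^ 5 ^ 1 = 1
    rw [← hk, pow_one, ← zpow_natCast, ← zpow_mul, mul_comm, zpow_mul, zpow_natCast, h5, one_zpow]
  have h1 := hp.card_modEq_card_fixedPoints H
  have h2 : Nat.card (MulAction.fixedPoints (Subgroup.zpowers α) H) = Nat.card (fixS α ⊓ H : Subgroup P) := by
    refine Nat.card_congr ⟨fun v => ⟨v.1.1, ?_, v.1.2⟩, fun v => ⟨⟨v.1, v.2.2⟩, ?_⟩, fun v => rfl, fun v => rfl⟩
    · have h3 := v.2 ⟨α, Subgroup.mem_zpowers α⟩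
      exact congrArg Subtype.val h3
    · rintro ⟨g, hg⟩
      obtain ⟨k, rfl⟩ := Subgroup.mem_zpowers_iff.1 hg
      apply Subtype.ext
      show (α ^ k) v.1 = v.1
      have h3 : α ∈ MulAction.stabilizer (MulAut P) v.1 := v.2.1
      exact zpow_mem h3 k
  rw [← h2]
  exact h1

theorem dvd_sixteen {n : ℕ} (h : n ∣ 16) (h1 : n ≡ 1 [MOD 5]) : n = 1 ∨ n = 16 := by
  have h2 : n ≤ 16 := Nat.le_of_dvd (by norm_num) h
  have h3 : n % 5 = 1 := h1
  interval_cases n <;> omega

theorem free_five (hcard : Nat.card P = 16) {α : MulAut P} (h5 : α ^ 5 = 1) (h1 : α ≠ 1) {v : P} (hv : α v = v) :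
    v = 1 := by
  have h2 := card_modEq h5 (H := ⊤) (fun v _ => Subgroup.mem_top _)
  rw [inf_top_eq, Subgroup.card_top, hcard] at h2
  have h3 : Nat.card (fixS α) ∣ 16 := hcard ▸ Subgroup.card_subgroup_dvd_card _
  rcases dvd_sixteen h3 (h2.symm.trans (by decide)) with h4 | h4
  · have h5 : v ∈ fixS α := hv
    rw [Subgroup.card_eq_one.1 h4] at h5
    exact h5
  · exact absurd (fixS_eq_top (Subgroup.eq_top_of_card_eq _ (by rw [h4, hcard]))) h1

/-- an automorphism commuting with one of order five and with a nontrivial fixed point is trivial -/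
theorem eq_one_of_commute (hcard : Nat.card P = 16) {α β : MulAut P} (h5 : α ^ 5 = 1) (h1 : α ≠ 1)
    (hc : α * β = β * α) {v : P} (hv1 : v ≠ 1) (hv : β v = v) : β = 1 := by
  have h2 := card_modEq h5 (H := fixS β) (fun w hw => by
    show β (α w) = α w
    rw [← MulAut.mul_apply, ← hc, MulAut.mul_apply, show β w = w from hw])
  have h3 : fixS α ⊓ fixS β = ⊥ := by
    rw [eq_bot_iff]
    intro w hw
    exact free_five hcard h5 h1 hw.1
  rw [h3, Subgroup.card_bot] at h2
  have h4 : Nat.card (fixS β) ∣ 16 := hcard ▸ Subgroup.card_subgroup_dvd_card _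
  rcases dvd_sixteen h4 h2 with h5 | h5
  · have h6 : v ∈ fixS β := hv
    rw [Subgroup.card_eq_one.1 h5] at h6
    exact absurd h6 hv1
  · exact fixS_eq_top (Subgroup.eq_top_of_card_eq _ (by rw [h5, hcard]))

omit [Finite P] in
/-- a group of odd order: `N(T) ≤ C(T)` for `|T| = 5` -/
theorem nc {G : Type*} [Group G] [Finite G] (hodd : ¬ 2 ∣ Nat.card G) (T : Subgroup G) (hT : Nat.card T = 5) :
    normalizer (T : Set G) ≤ centralizer (T : Set G) := by
  have : Fact (Nat.Prime 5) := ⟨Nat.prime_five⟩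
  have hcyc : IsCyclic T := isCyclic_of_prime_card hT
  have h1 : Nat.card (MulAut T) = 4 := by
    rw [hcyc.card_mulAut, hT]
    decide
  have h2 : Nat.card T.normalizerMonoidHom.range ∣ 4 := h1 ▸ Subgroup.card_subgroup_dvd_card _
  have h3 : Nat.card T.normalizerMonoidHom.range ∣ Nat.card G :=
    (Subgroup.card_range_dvd _).trans (Subgroup.card_subgroup_dvd_card _)
  have h4 : Nat.card T.normalizerMonoidHom.range = 1 := by
    have h5 : Nat.Coprime (Nat.card G) 4 := by
      rw [show 4 = 2 ^ 2 by norm_num]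
      exact Nat.Coprime.pow_right _ ((Nat.Prime.coprime_iff_not_dvd Nat.prime_two).2 hodd).symm
    exact Nat.eq_one_of_dvd_coprimes h5 h3 h2
  intro g hg
  have h5 : T.normalizerMonoidHom ⟨g, hg⟩ = 1 := by
    have h6 : T.normalizerMonoidHom ⟨g, hg⟩ ∈ T.normalizerMonoidHom.range := ⟨_, rfl⟩
    rw [Subgroup.card_eq_one.1 h4] at h6
    exact h6
  have h6 : (⟨g, hg⟩ : normalizer (T : Set G)) ∈ T.normalizerMonoidHom.ker := h5
  rw [Subgroup.normalizerMonoidHom_ker] at h6
  exact h6

/-- **(G)** -/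
theorem free_of_five {P : Type*} [Group P] [Finite P] (hel : ∀ x : P, x * x = 1) (hcard : Nat.card P = 16)
    (E : Subgroup (MulAut P)) (hodd : ¬ 2 ∣ Nat.card E) (h5 : 5 ∣ Nat.card E) :
    ∀ α ∈ E, ∀ v : P, v ≠ 1 → α v = v → α = 1 := by
  have : Fact (Nat.Prime 5) := ⟨Nat.prime_five⟩
  have : Fact (Nat.Prime 7) := ⟨by norm_num⟩
  have hcm : ∀ a b : P, a * b = b * a := by
    intro a b
    have ha : a⁻¹ = a := inv_eq_of_mul_eq_one_left (hel a)
    have hb : b⁻¹ = b := inv_eq_of_mul_eq_one_left (hel b)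
    have hab : (a * b)⁻¹ = a * b := inv_eq_of_mul_eq_one_left (hel _)
    rw [← hab, mul_inv_rev, ha, hb]
  have h20 : Nat.card (MulAut P) = 20160 := by
    let _ : CommGroup P := { (inferInstance : Group P) with mul_comm := hcm }
    exact card_aut (V := P) (fun x => by rw [pow_two]; exact hel x) hcard
  have h315 : Nat.card E ∣ 315 := by
    have h1 : Nat.card E ∣ 64 * 315 := by
      have := Subgroup.card_subgroup_dvd_card E
      rwa [h20] at this
    refine Nat.Coprime.dvd_of_dvd_mul_left ?_ h1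
    rw [show 64 = 2 ^ 6 by norm_num]
    exact Nat.Coprime.pow_right _ ((Nat.Prime.coprime_iff_not_dvd Nat.prime_two).2 hodd).symm
  let T : Sylow 5 E := default
  have hT : Nat.card T = 5 := by
    obtain ⟨k, hk⟩ := IsPGroup.iff_card.1 T.isPGroup'
    have h1 : Nat.card T ∣ 315 := (Subgroup.card_subgroup_dvd_card _).trans h315
    rw [hk] at h1 ⊢
    have h2 : k < 2 := by
      by_contra hcon
      push Not at hcon
      exact absurd ((pow_dvd_pow 5 hcon).trans h1) (by norm_num)
    have h3 : k ≠ 0 := by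
      rintro rfl
      have h4 : 5 ∣ Nat.card T := T.dvd_card_of_dvd_card h5
      rw [hk] at h4
      norm_num at h4
    have : k = 1 := by omega
    rw [this, pow_one]
  have hNC := nc hodd (T : Subgroup E) hT
  -- the complement
  set K := (MonoidHom.transferSylow T hNC).ker with hK
  have hcomp : IsComplement' K T := MonoidHom.ker_transferSylow_isComplement' T hNC
  have hKc : Nat.card K * 5 = Nat.card E := by
    rw [← hT]
    exact hcomp.card_mul
  have hKi : K.index = 5 := by rw [hcomp.symm.index_eq_card, hT]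
  -- an element of order prime to `5` is in `K`
  have hmemK : ∀ e : E, (∃ n : ℕ, ¬ 5 ∣ n ∧ e ^ n = 1) → e ∈ K := by
    rintro e ⟨n, hn, he⟩
    have h1 : (QuotientGroup.mk e : E ⧸ K) ^ n = 1 := by
      rw [← QuotientGroup.mk_pow, he]
      rfl
    have h2 : (QuotientGroup.mk e : E ⧸ K) ^ 5 = 1 := by
      have h3 : Nat.card (E ⧸ K) = 5 := hKi
      have h4 : (QuotientGroup.mk e : E ⧸ K) ^ Nat.card (E ⧸ K) = 1 := pow_card_eq_one'
      rwa [h3] at h4
    have h3 : Nat.Coprime n 5 := ((Nat.Prime.coprime_iff_not_dvd Nat.prime_five).2 hn).symm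
    have h4 : (QuotientGroup.mk e : E ⧸ K) = 1 := by
      have h5 := orderOf_dvd_of_pow_eq_one h1
      have h6 := orderOf_dvd_of_pow_eq_one h2
      exact orderOf_eq_one_iff.1 (Nat.eq_one_of_dvd_coprimes h3 h5 h6)
    exact (QuotientGroup.eq_one_iff e).1 h4
  -- elements of order divisible by `5` have no fixed points
  have hfree : ∀ e : E, ∀ v : P, v ≠ 1 → (e : MulAut P) v = v → ¬ 5 ∣ orderOf e := by
    intro e v hv hev h6
    obtain ⟨m, hm⟩ := h6
    have hm0 : m ≠ 0 := by
      rintro rfl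
      rw [mul_zero] at hm
      exact (orderOf_pos e).ne' hm
    have h7 : ((e : MulAut P) ^ m) ^ 5 = 1 := by
      rw [← pow_mul, mul_comm, ← hm]
      have := congrArg Subtype.val (pow_orderOf_eq_one e)
      exact this
    have h8 : (e : MulAut P) ^ m ≠ 1 := by
      intro h9
      have h10 : e ^ m = 1 := Subtype.ext h9
      have h11 := Nat.le_of_dvd (Nat.pos_of_ne_zero hm0) (orderOf_dvd_of_pow_eq_one h10)
      omega
    have h9 : ((e : MulAut P) ^ m) v = v := by
      have h10 : (e : MulAut P) ∈ MulAction.stabilizer (MulAut P) v := hev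
      exact pow_mem h10 m
    exact hv (free_five hcard h7 h8 h9)
  -- the stabilizers have index at most three in `K`
  have hstab : ∀ v : P, v ≠ 1 → ∀ κ ∈ K, ∃ m : ℕ, 0 < m ∧ m ≤ 3 ∧ ((κ : MulAut P) ^ m) v = v := by
    intro v hv κ hκ
    let Ev := MulAction.stabilizer E v
    have h1 : Ev ≤ K := by
      intro e he
      have h2 : (e : MulAut P) v = v := he
      exact hmemK e ⟨orderOf e, hfree e v hv h2, pow_orderOf_eq_one e⟩
    have h2 : Ev.index ≤ 15 := by
      have h3 : Ev.index = Nat.card (MulAction.orbit E v) := MulAction.index_stabilizer E v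
      rw [h3]
      have h4 : (MulAction.orbit E v) ⊆ ({1}ᶜ : Set P) := by
        rintro _ ⟨e, rfl⟩
        show ((e : MulAut P) v) ≠ 1
        intro h5
        exact hv ((map_eq_one_iff _ (e : MulAut P).injective).1 h5)
      have h5 := Nat.card_mono (Set.toFinite _) h4
      have h6 : Nat.card ({1}ᶜ : Set P) = 15 := by
        have h7 := Set.ncard_add_ncard_compl ({1} : Set P)
        rw [Set.ncard_singleton, hcard] at h7
        have h8 : Nat.card ({1}ᶜ : Set P) = ({1}ᶜ : Set P).ncard := rfl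
        omega
      omega
    have h3 : Ev.relIndex K * K.index = Ev.index := Subgroup.relIndex_mul_index h1
    rw [hKi] at h3
    have h4 : Ev.relIndex K ≤ 3 := by omega
    have h5 : (Ev.subgroupOf K).index ≠ 0 := Subgroup.index_ne_zero_of_finite
    obtain ⟨m, hm0, hm3, hm⟩ := Subgroup.exists_pow_mem_of_index_ne_zero h5 (⟨κ, hκ⟩ : K)
    refine ⟨m, hm0, hm3.trans h4, ?_⟩
    have h6 : κ ^ m ∈ Ev := hm
    have h7 : ((κ ^ m : E) : MulAut P) v = v := h6
    exact h7
  have h7 : ¬ 7 ∣ Nat.card K := by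
    intro h7
    obtain ⟨κ, hκ⟩ := exists_prime_orderOf_dvd_card' 7 h7
    have h8 : (κ : E) = 1 := by
      apply Subtype.ext
      ext v
      by_cases hv : v = 1
      · rw [hv, map_one]
        rfl
      obtain ⟨m, hm0, hm3, hm⟩ := hstab v hv κ κ.2
      have h9 : Nat.Coprime m 7 := by
        interval_cases m <;> decide
      have h10 : ((κ : E) : MulAut P) ∈ MulAction.stabilizer (MulAut P) v := by
        have h11 : ((κ : E) : MulAut P) ^ m ∈ MulAction.stabilizer (MulAut P) v := hm
        have h12 : ((κ : E) : MulAut P) ^ 7 = 1 := by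
          have h13 : κ ^ 7 = 1 := by
            have := pow_orderOf_eq_one κ
            rwa [hκ] at this
          exact congrArg (fun z : K => ((z : E) : MulAut P)) h13
        have h14 : ((κ : E) : MulAut P) ^ 7 ∈ MulAction.stabilizer (MulAut P) v := by
          rw [h12]; exact one_mem _
        have h15 : ((κ : E) : MulAut P) = (((κ : E) : MulAut P) ^ m) ^ (Nat.gcdA m 7) *
            (((κ : E) : MulAut P) ^ 7) ^ (Nat.gcdB m 7) := by
          rw [← zpow_natCast, ← zpow_natCast, ← zpow_mul, ← zpow_mul, ← zpow_add, ← Nat.gcd_eq_gcd_ab,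
            Nat.Coprime.gcd_eq_one h9]
          simp
        rw [h15]
        exact mul_mem (zpow_mem h11 _) (zpow_mem h14 _)
      exact h10
    have h9 : κ = 1 := Subtype.ext h8
    rw [h9, orderOf_one] at hκ
    norm_num at hκ
  have h9 : Nat.card K ∣ 9 := by
    have h8 : Nat.card K ∣ 7 * 9 := by
      have h10 : Nat.card K * 5 ∣ 63 * 5 := by rw [hKc]; exact h315
      exact Nat.dvd_of_mul_dvd_mul_right (by norm_num) h10
    exact Nat.Coprime.dvd_of_dvd_mul_left ((Nat.Prime.coprime_iff_not_dvd (by norm_num)).2 h7).symm h8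
  have hcardS : Nat.card (Sylow 5 E) = 1 := by
    have h10 : Nat.card (Sylow 5 E) ∣ (T : Subgroup E).index := T.card_dvd_index
    have h11 : (T : Subgroup E).index = Nat.card K := by
      have h12 := (T : Subgroup E).card_mul_index
      rw [hT] at h12
      omega
    rw [h11] at h10
    have h12 := h10.trans h9
    have h13 : Nat.card (Sylow 5 E) % 5 = 1 := card_sylow_modEq_one 5 E
    have h14 := Nat.le_of_dvd (by norm_num) h12
    generalize Nat.card (Sylow 5 E) = n at *
    interval_cases n <;> omega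
  have hnorm : normalizer ((T : Subgroup E) : Set E) = ⊤ := by
    rw [← Subgroup.index_eq_one]
    exact T.card_eq_index_normalizer.symm.trans hcardS
  -- the end
  intro α hα v hv hαv
  obtain ⟨τ, hτ⟩ := exists_prime_orderOf_dvd_card' 5 (show 5 ∣ Nat.card T by rw [hT])
  have h10 : (⟨α, hα⟩ : E) ∈ centralizer ((T : Subgroup E) : Set E) := hNC (hnorm ▸ Subgroup.mem_top _)
  have h11 := (Subgroup.mem_centralizer_iff.1 h10) (τ : E) τ.2
  have h12 : ((τ : E) : MulAut P) * α = α * ((τ : E) : MulAut P) := congrArg Subtype.val h11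
  have h13 : ((τ : E) : MulAut P) ^ 5 = 1 := by
    have h14 : τ ^ 5 = 1 := by
      have := pow_orderOf_eq_one τ
      rwa [hτ] at this
    exact congrArg (fun z : T => ((z : E) : MulAut P)) h14
  have h14 : ((τ : E) : MulAut P) ≠ 1 := by
    intro h15
    have h16 : τ = 1 := Subtype.ext (Subtype.ext h15)
    rw [h16, orderOf_one] at hτ
    norm_num at hτ
  exact eq_one_of_commute hcard h13 h14 h12 hv hαv

end Cfsg.Agent.H193.KS
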